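import Mathlib

/-! Products of two conjugates of one regular semisimple element cover the non-central part of
SL(3): for |F| ≥ 4 by an LU factorisation of a suitable similar matrix, for |F| = 3 by a finite
list of witnesses. -/

set_option autoImplicit false

namespace Cfsg.Agent.Thompson

open Matrix

variable {F : Type*} [Field F]

local notation "SL3" => Matrix.SpecialLinearGroup (Fin 3) F
local notation "M3" => Matrix (Fin 3) (Fin 3) F

/-- GL-conjugates of `D` lying in SL(3) are SL-conjugates. -/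
def Closed (D : SL3) : Prop :=
  ∀ (P : M3) (A : SL3), P.det ≠ 0 → (A : M3) * P = P * (D : M3) →
    ∃ u : SL3, A = u * D * u⁻¹

theorem closed_diag (D : SL3) (d : Fin 3 → F) (hD : (D : M3) = diagonal d) : Closed D := by
  intro P A hP hA
  set E : M3 := diagonal ![(P.det)⁻¹, 1, 1] with hE
  have hdet : (P * E).det = 1 := by
    rw [det_mul, hE, det_diagonal]; simp [Fin.prod_univ_three, hP]
  let u : SL3 := ⟨P * E, hdet⟩
  refine ⟨u, ?_⟩
  rw [eq_mul_inv_iff_mul_eq]
  apply Subtype.ext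
  show (A : M3) * (P * E) = P * E * (D : M3)
  rw [← Matrix.mul_assoc, hA, Matrix.mul_assoc, Matrix.mul_assoc, hD, hE,
    diagonal_mul_diagonal, diagonal_mul_diagonal]
  congr 2; funext i; ring

theorem prod_two_conj (D g : SL3) (hD : Closed D) (P L U PL PU : M3) (hP : P.det ≠ 0)
    (hL : L.det = 1) (hU : U.det = 1) (hPL : PL.det ≠ 0) (hPU : PU.det ≠ 0)
    (hg : (g : M3) * P = P * (L * U)) (hl : L * PL = PL * (D : M3)) (hu : U * PU = PU * (D : M3)) :
    ∃ u v : SL3, g = (u * D * u⁻¹) * (v * D * v⁻¹) := by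
  have hPu : IsUnit P.det := isUnit_iff_ne_zero.2 hP
  have key : ∀ X : M3, (P * X * P⁻¹).det = X.det := fun X => by
    rw [det_mul, det_mul, det_nonsing_inv, Ring.inverse_eq_inv', mul_comm P.det, mul_assoc,
      mul_inv_cancel₀ hP, mul_one]
  have cl : ∀ X PX : M3, X.det = 1 → PX.det ≠ 0 → X * PX = PX * (D : M3) →
      ∀ A : SL3, (A : M3) = P * X * P⁻¹ → ∃ u : SL3, A = u * D * u⁻¹ := by
    intro X PX hX hPX hx A hA
    refine hD (P * PX) A (by rw [det_mul]; exact mul_ne_zero hP hPX) ?_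
    rw [hA, Matrix.mul_assoc (P * X), ← Matrix.mul_assoc P⁻¹, nonsing_inv_mul P hPu,
      Matrix.one_mul, Matrix.mul_assoc, hx, Matrix.mul_assoc]
  let A : SL3 := ⟨P * L * P⁻¹, by rw [key, hL]⟩
  let B : SL3 := ⟨P * U * P⁻¹, by rw [key, hU]⟩
  obtain ⟨u, hu'⟩ := cl L PL hL hPL hl A rfl
  obtain ⟨v, hv'⟩ := cl U PU hU hPU hu B rfl
  refine ⟨u, v, ?_⟩
  rw [← hu', ← hv']
  apply Subtype.ext
  show (g : M3) = (P * L * P⁻¹) * (P * U * P⁻¹)
  calc (g : M3) = (g : M3) * P * P⁻¹ := by rw [Matrix.mul_assoc, mul_nonsing_inv P hPu, Matrix.mul_one]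
    _ = P * L * (P⁻¹ * P) * U * P⁻¹ := by
          rw [hg, nonsing_inv_mul P hPu, Matrix.mul_one, Matrix.mul_assoc P L U]
    _ = _ := by simp only [Matrix.mul_assoc]

/-- A non-scalar matrix is similar to one with nonzero (1,0) entry. -/
theorem exists_entry (M : M3) (h : ∀ c : F, M ≠ diagonal fun _ => c) :
    ∃ P N : M3, P.det ≠ 0 ∧ M * P = P * N ∧ N 1 0 ≠ 0 := by
  have hperm : ∀ i j : Fin 3, i ≠ j → ∃ σ : Equiv.Perm (Fin 3), σ 0 = j ∧ σ 1 = i := by decide
  have step : ∀ M : M3, (∃ i j, i ≠ j ∧ M i j ≠ 0) →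
      ∃ P N : M3, P.det ≠ 0 ∧ M * P = P * N ∧ N 1 0 ≠ 0 := by
    rintro M ⟨i, j, hij, hne⟩
    obtain ⟨σ, h0, h1⟩ := hperm i j hij
    refine ⟨(1 : M3).submatrix (Equiv.refl _) σ, M.submatrix σ σ, ?_, ?_, ?_⟩
    · rw [Equiv.coe_refl, det_permute']; simp only [det_one, mul_one]
      rcases Int.units_eq_one_or (Equiv.Perm.sign σ) with hs | hs <;> simp [hs]
    · rw [Matrix.mul_submatrix_one, Matrix.one_submatrix_mul]
      ext a b; simp
    · simpa [h0, h1] using hne
  by_cases hod : ∃ i j, i ≠ j ∧ M i j ≠ 0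
  · exact step M hod
  push Not at hod
  have hd : ∃ i j, i ≠ j ∧ M i i ≠ M j j := by
    by_contra hc; push Not at hc
    apply h (M 0 0); ext a b
    rcases eq_or_ne a b with rfl | hab
    · rw [diagonal_apply_eq]; rcases eq_or_ne a 0 with rfl | ha; · rfl
      exact hc a 0 ha
    · rw [diagonal_apply_ne _ hab, hod a b hab]
  obtain ⟨i, j, hij, hne⟩ := hd
  set T : M3 := transvection i j 1
  have hT : T.det = 1 := det_transvection_of_ne i j hij 1
  have hTu : IsUnit T.det := by rw [hT]; exact isUnit_one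
  obtain ⟨P, N, hP, hPN, hN⟩ := step (T⁻¹ * M * T) ⟨i, j, hij, by
    have hTi : T⁻¹ = transvection i j (-1) := inv_eq_right_inv (by
      rw [transvection_mul_transvection_same _ _ hij]; simp)
    rw [hTi]
    rw [Matrix.mul_assoc, transvection_mul_apply_same]
    rw [mul_transvection_apply_same, mul_transvection_apply_same, hod i j hij, hod j i hij.symm]
    simp only [one_mul, zero_add, neg_mul, add_zero]
    intro hcon; exact hne (by linear_combination hcon)⟩
  refine ⟨T * P, N, by rw [det_mul, hT, one_mul]; exact hP, ?_, hN⟩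
  have := congrArg (T * ·) hPN
  simp only [← Matrix.mul_assoc] at this ⊢
  rwa [mul_nonsing_inv T hTu, Matrix.one_mul] at this

/-- Prescribe the first two leading principal minors. -/
theorem exists_minors (M : M3) (h10 : M 1 0 ≠ 0) (hdet : M.det ≠ 0) (c m : F) :
    ∃ P N : M3, P.det ≠ 0 ∧ M * P = P * N ∧ N 0 0 = c ∧ N 0 0 * N 1 1 - N 0 1 * N 1 0 = m := by
  set D0 := M 0 0 * M 1 2 - M 0 2 * M 1 0 with hD0
  set D1 := M 1 0 * M 2 2 - M 1 2 * M 2 0 with hD1
  have hor : ∃ r : F, D0 + r * D1 ≠ 0 := by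
    by_contra hc; push Not at hc
    have e0 : D0 = 0 := by simpa using hc 0
    have e1 : D1 = 0 := by simpa [e0] using hc 1
    apply mul_ne_zero hdet h10
    rw [det_fin_three]
    linear_combination (-(M 1 0 * M 2 1 - M 1 1 * M 2 0)) * e0 + (M 0 0 * M 1 1 - M 0 1 * M 1 0) * e1
  obtain ⟨r, hr⟩ := hor
  let Y : F → M3 := fun s =>
    !![M 0 0, M 0 0 * (M 0 0 - c + s * r) + M 0 1 * M 1 0 + M 0 2 * (M 2 0 + s), r;
       M 1 0, M 1 0 * (M 0 0 - c + s * r) + M 1 1 * M 1 0 + M 1 2 * (M 2 0 + s), 0;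
       M 2 0, M 2 0 * (M 0 0 - c + s * r) + M 2 1 * M 1 0 + M 2 2 * (M 2 0 + s), 1]
  obtain ⟨s, hs⟩ : ∃ s : F, (Y s).det = m * M 1 0 := by
    refine ⟨(m * M 1 0 - (Y 0).det) / (D0 + r * D1), ?_⟩
    have hlin : ∀ s : F, (Y s).det = (Y 0).det + s * (D0 + r * D1) := by
      intro s; simp only [Y, hD0, hD1, det_fin_three]
      simp [Matrix.vecHead, Matrix.vecTail]; ring
    rw [hlin, div_mul_cancel₀ _ hr]; ring
  set P : M3 := !![1, M 0 0 - c + s * r, r; 0, M 1 0, 0; 0, M 2 0 + s, 1] with hPdef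
  have hPd : P.det = M 1 0 := by rw [hPdef, det_fin_three]; simp
  have hPu : IsUnit P.det := by rw [hPd]; exact isUnit_iff_ne_zero.2 h10
  set N : M3 := P⁻¹ * M * P with hN
  have hMP : M * P = P * N := by
    rw [hN, ← Matrix.mul_assoc, ← Matrix.mul_assoc, mul_nonsing_inv P hPu, Matrix.one_mul]
  have hcol : N *ᵥ Pi.single 0 1 = ![c, 1, -s] := by
    have h1 : P *ᵥ ![c, 1, -s] = M *ᵥ Pi.single 0 1 := by
      funext i; fin_cases i <;>
        simp [hPdef, mulVec, dotProduct, Fin.sum_univ_three] <;> ring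
    have h2 : P *ᵥ Pi.single 0 1 = Pi.single 0 1 := by
      funext i; fin_cases i <;> simp [hPdef]
    rw [hN, ← mulVec_mulVec, h2, ← mulVec_mulVec, ← h1, mulVec_mulVec,
      nonsing_inv_mul P hPu, one_mulVec]
  have h00 : N 0 0 = c := by simpa using congrFun hcol 0
  refine ⟨P, N, by rw [hPd]; exact h10, hMP, h00, ?_⟩
  set E : M3 := diagonal ![1, 1, 0]
  set E' : M3 := diagonal ![0, 0, 1]
  have hX : (N * E + E').det = N 0 0 * N 1 1 - N 0 1 * N 1 0 := by
    rw [det_fin_three]; simp [E, E', mul_diagonal, Matrix.add_apply]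
  have hPX : P * (N * E + E') = Y s := by
    rw [Matrix.mul_add, ← Matrix.mul_assoc, ← hMP]
    ext i j
    fin_cases i <;> fin_cases j <;>
      simp [E, E', Y, hPdef, vecMul_diagonal, Matrix.add_apply, mul_apply, Fin.sum_univ_three]
  have := congrArg det hPX
  rw [det_mul, hX, hPd, hs] at this
  exact mul_left_cancel₀ h10 (by rw [this]; ring)

theorem diag_lower (b1 b2 b3 l m n : F) (h12 : b1 ≠ b2) (h23 : b2 ≠ b3) (h13 : b1 ≠ b3) :
    ∃ P : M3, P.det ≠ 0 ∧
      !![b1, 0, 0; l, b2, 0; m, n, b3] * P = P * diagonal ![b1, b2, b3] := by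
  refine ⟨!![1, 0, 0; l / (b1 - b2), 1, 0; (m + n * (l / (b1 - b2))) / (b1 - b3), n / (b2 - b3), 1],
    by rw [det_fin_three]; simp, ?_⟩
  have := sub_ne_zero.2 h12; have := sub_ne_zero.2 h23; have := sub_ne_zero.2 h13
  ext i j
  fin_cases i <;> fin_cases j <;>
    simp [mul_apply, Fin.sum_univ_three, diagonal] <;> field_simp <;> ring

theorem diag_upper (b1 b2 b3 l m n : F) (h12 : b1 ≠ b2) (h23 : b2 ≠ b3) (h13 : b1 ≠ b3) :
    ∃ P : M3, P.det ≠ 0 ∧
      !![b1, l, m; 0, b2, n; 0, 0, b3] * P = P * diagonal ![b1, b2, b3] := by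
  refine ⟨!![1, l / (b2 - b1), (l * (n / (b3 - b2)) + m) / (b3 - b1); 0, 1, n / (b3 - b2); 0, 0, 1],
    by rw [det_fin_three]; simp, ?_⟩
  have := sub_ne_zero.2 h12.symm; have := sub_ne_zero.2 h23.symm; have := sub_ne_zero.2 h13.symm
  ext i j
  fin_cases i <;> fin_cases j <;>
    simp [mul_apply, Fin.sum_univ_three, diagonal] <;> field_simp <;> ring

theorem cover_diag (D : SL3) (b1 b2 b3 : F) (hD : (D : M3) = diagonal ![b1, b2, b3])
    (h12 : b1 ≠ b2) (h23 : b2 ≠ b3) (h13 : b1 ≠ b3) (g : SL3)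
    (hg : ∀ c : F, (g : M3) ≠ diagonal fun _ => c) :
    ∃ u v : SL3, g = (u * D * u⁻¹) * (v * D * v⁻¹) := by
  have hprod : b1 * b2 * b3 = 1 := by
    have := D.2; rw [hD, det_diagonal] at this; simpa [Fin.prod_univ_three] using this
  have hb1 : b1 ≠ 0 := fun h => by simp [h] at hprod
  have hb2 : b2 ≠ 0 := fun h => by simp [h] at hprod
  obtain ⟨P1, M, hP1, hgM, hM⟩ := exists_entry (g : M3) hg
  have hdM : M.det = 1 := by
    have := congrArg det hgM; rw [det_mul, det_mul, g.2, one_mul] at this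
    exact mul_left_cancel₀ hP1 (by rw [mul_one]; exact this.symm)
  obtain ⟨P2, N, hP2, hMN, h00, hmin⟩ :=
    exists_minors M hM (by rw [hdM]; exact one_ne_zero) (b1 * b1) (b1 * b1 * (b2 * b2))
  have hdN : N.det = 1 := by
    have := congrArg det hMN; rw [det_mul, det_mul, hdM, one_mul] at this
    exact mul_left_cancel₀ hP2 (by rw [mul_one]; exact this.symm)
  set l := N 1 0 / b1
  set m := N 2 0 / b1
  set u12 := N 0 1 / b1
  set u13 := N 0 2 / b1
  set u23 := (N 1 2 - l * u13) / b2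
  set n := (N 2 1 - m * u12) / b2
  set L : M3 := !![b1, 0, 0; l, b2, 0; m, n, b3] with hL
  set U : M3 := !![b1, u12, u13; 0, b2, u23; 0, 0, b3] with hU
  have hdL : L.det = 1 := by rw [hL, det_fin_three]; simp; linear_combination hprod
  have hdU : U.det = 1 := by rw [hU, det_fin_three]; simp; linear_combination hprod
  have e10 : l * b1 = N 1 0 := div_mul_cancel₀ _ hb1
  have e20 : m * b1 = N 2 0 := div_mul_cancel₀ _ hb1
  have e01 : b1 * u12 = N 0 1 := mul_div_cancel₀ _ hb1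
  have e02 : b1 * u13 = N 0 2 := mul_div_cancel₀ _ hb1
  have e12 : b2 * u23 = N 1 2 - l * u13 := mul_div_cancel₀ _ hb2
  have e21 : n * b2 = N 2 1 - m * u12 := div_mul_cancel₀ _ hb2
  have e11 : l * u12 + b2 * b2 = N 1 1 := by
    apply mul_left_cancel₀ (mul_ne_zero hb1 hb1)
    rw [← e01, ← e10] at hmin
    rw [h00] at hmin
    linear_combination -hmin
  have hLU : L * U = N := by
    have hrest : ∀ i j : Fin 3, ¬ (i = 2 ∧ j = 2) → (L * U) i j = N i j := by
      intro i j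
      fin_cases i <;> fin_cases j <;>
        simp [hL, hU, mul_apply, Fin.sum_univ_three, h00, e10, e20, e01, e02, e11] <;>
        first
          | linear_combination e12
          | linear_combination e21
    have h22 : (L * U) 2 2 = N 2 2 := by
      have hd : (L * U).det = N.det := by rw [det_mul, hdL, hdU, hdN, one_mul]
      rw [det_fin_three, det_fin_three (A := N)] at hd
      simp only [hrest 0 0 (by decide), hrest 0 1 (by decide), hrest 0 2 (by decide),
        hrest 1 0 (by decide), hrest 1 1 (by decide), hrest 1 2 (by decide),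
        hrest 2 0 (by decide), hrest 2 1 (by decide)] at hd
      apply mul_left_cancel₀ (a := N 0 0 * N 1 1 - N 0 1 * N 1 0)
      · rw [hmin]; exact mul_ne_zero (mul_ne_zero hb1 hb1) (mul_ne_zero hb2 hb2)
      · linear_combination hd
    ext i j
    by_cases hij : i = 2 ∧ j = 2
    · rw [hij.1, hij.2]; exact h22
    · exact hrest i j hij
  obtain ⟨PL, hPL, hl⟩ := diag_lower b1 b2 b3 l m n h12 h23 h13
  obtain ⟨PU, hPU, hu⟩ := diag_upper b1 b2 b3 u12 u13 u23 h12 h23 h13
  refine prod_two_conj D g (closed_diag D _ hD) (P1 * P2) L U PL PU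
    (by rw [det_mul]; exact mul_ne_zero hP1 hP2) hdL hdU hPL hPU ?_ ?_ ?_
  · rw [hLU, ← Matrix.mul_assoc, hgM, Matrix.mul_assoc, hMN, Matrix.mul_assoc]
  · rw [hD, hL]; exact hl
  · rw [hD, hU]; exact hu

end Cfsg.Agent.Thompson
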