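import Cfsg.Agent.Lib.Classical.Thompson.PSL3

/-! The case of three field elements: witnesses checked by kernel computation. -/

set_option autoImplicit false

namespace Cfsg.Agent.Thompson

open Matrix

abbrev M33 := Matrix (Fin 3) (Fin 3) (ZMod 3)

abbrev C13 : M33 := !![0, 0, 1; 1, 0, 1; 0, 1, 0]

def adj3 (A : M33) : M33 :=
  !![A 1 1 * A 2 2 - A 1 2 * A 2 1, A 0 2 * A 2 1 - A 0 1 * A 2 2, A 0 1 * A 1 2 - A 0 2 * A 1 1;
     A 1 2 * A 2 0 - A 1 0 * A 2 2, A 0 0 * A 2 2 - A 0 2 * A 2 0, A 0 2 * A 1 0 - A 0 0 * A 1 2;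
     A 1 0 * A 2 1 - A 1 1 * A 2 0, A 0 1 * A 2 0 - A 0 0 * A 2 1, A 0 0 * A 1 1 - A 0 1 * A 1 0]

/-- the cyclic basis at the first unit vector -/
def kry (A : M33) : M33 :=
  !![1, A 0 0, A 0 0 * A 0 0 + A 0 1 * A 1 0 + A 0 2 * A 2 0;
     0, A 1 0, A 1 0 * A 0 0 + A 1 1 * A 1 0 + A 1 2 * A 2 0;
     0, A 2 0, A 2 0 * A 0 0 + A 2 1 * A 1 0 + A 2 2 * A 2 0]

def Good (A : M33) : Prop := A.det = 1 ∧ (kry A).det ≠ 0 ∧ A * kry A = kry A * C13

instance : DecidablePred Good := fun A => by unfold Good; infer_instance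

def wit : List M33 :=
  [!![1, 0, 1; 1, 1, 1; 0, 1, 1],
   !![1, 0, 1; 2, 1, 2; 0, 2, 1],
   !![1, 0, 2; 2, 1, 1; 0, 1, 1],
   !![2, 1, 1; 1, 1, 2; 1, 2, 0],
   !![2, 2, 2; 2, 0, 2; 2, 2, 1],
   !![0, 0, 2; 1, 0, 1; 1, 2, 0],
   !![1, 2, 1; 2, 2, 0; 2, 1, 0],
   !![0, 0, 2; 2, 0, 0; 2, 1, 0],
   !![0, 1, 2; 0, 0, 1; 1, 2, 0],
   !![1, 2, 1; 1, 2, 2; 0, 2, 0],
   !![1, 0, 1; 1, 2, 1; 1, 2, 0],
   !![0, 0, 1; 1, 0, 0; 1, 1, 0],
   !![0, 1, 0; 0, 2, 2; 2, 0, 1]]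

def Hit (N : M33) : Prop := ∃ y ∈ wit, y * (adj3 y * N) = N ∧ Good y ∧ Good (adj3 y * N)

instance : DecidablePred Hit := fun N => by unfold Hit; infer_instance

theorem hit_cyclic : ∀ b c : ZMod 3, Hit !![0, 0, 1; 1, 0, b; 0, 1, c] := by decide +kernel

theorem hit_other : ∀ a b c d e : ZMod 3, -(a * e) = 1 →
    Hit !![0, a, c; 1, b, d; 0, 0, e] := by decide +kernel

def D13 : Matrix.SpecialLinearGroup (Fin 3) (ZMod 3) := ⟨C13, by decide +kernel⟩

theorem D13_pow : D13 ^ 13 = 1 := by decide +kernel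

theorem units_three : ∀ d : ZMod 3, d ≠ 0 → d = 1 ∨ d = -1 := by decide

theorem closed_three : Closed D13 := by
  have : Fact (Nat.Prime 3) := ⟨Nat.prime_three⟩
  intro P A hP hA
  have h2 := units_three
  have hA' : ∀ Q : M33, Q.det = 1 → (A : M33) * Q = Q * (D13 : M33) →
      ∃ u : Matrix.SpecialLinearGroup (Fin 3) (ZMod 3), A = u * D13 * u⁻¹ := by
    intro Q hQ h
    let u : Matrix.SpecialLinearGroup (Fin 3) (ZMod 3) := ⟨Q, hQ⟩
    refine ⟨u, ?_⟩
    rw [eq_mul_inv_iff_mul_eq]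
    exact Subtype.ext h
  rcases h2 _ hP with h | h
  · exact hA' P h hA
  · refine hA' (-P) ?_ ?_
    · rw [det_neg, h, Fintype.card_fin]; ring
    · rw [Matrix.mul_neg, Matrix.neg_mul, hA]

theorem cover_three (g : Matrix.SpecialLinearGroup (Fin 3) (ZMod 3))
    (hg : ∀ c : ZMod 3, (g : M33) ≠ diagonal fun _ => c) :
    ∃ u v, g = (u * D13 * u⁻¹) * (v * D13 * v⁻¹) := by
  have : Fact (Nat.Prime 3) := ⟨Nat.prime_three⟩
  obtain ⟨P1, M, hP1, hgM, hM⟩ := exists_entry (g : M33) hg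
  have detEq : ∀ {A B P : M33}, P.det ≠ 0 → A * P = P * B → A.det = 1 → B.det = 1 := by
    intro A B P hP h hA
    have := congrArg det h; rw [det_mul, det_mul, hA, one_mul] at this
    exact mul_left_cancel₀ hP (by rw [mul_one]; exact this.symm)
  have hdM := detEq hP1 hgM g.2
  have conj : ∀ (M P : M33), P.det ≠ 0 → M * P = P * (P⁻¹ * M * P) := fun M P hP => by
    rw [← Matrix.mul_assoc, ← Matrix.mul_assoc, mul_nonsing_inv P (isUnit_iff_ne_zero.2 hP),
      Matrix.one_mul]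
  set P2 : M33 := !![1, M 0 0, 0; 0, M 1 0, 0; 0, M 2 0, 1] with hP2
  have hdP2 : P2.det ≠ 0 := by rw [hP2, det_fin_three]; simpa using hM
  have hu2 : IsUnit P2.det := isUnit_iff_ne_zero.2 hdP2
  set N := P2⁻¹ * M * P2 with hN
  have hMN : M * P2 = P2 * N := conj M P2 hdP2
  have hdN := detEq hdP2 hMN hdM
  have hcol : N *ᵥ Pi.single 0 1 = ![0, 1, 0] := by
    have h1 : P2 *ᵥ ![0, 1, 0] = M *ᵥ Pi.single 0 1 := by
      funext i; fin_cases i <;> simp [hP2, mulVec, dotProduct, Fin.sum_univ_three]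
    have h2 : P2 *ᵥ Pi.single 0 1 = Pi.single 0 1 := by
      funext i; fin_cases i <;> simp [hP2]
    rw [hN, ← mulVec_mulVec, h2, ← mulVec_mulVec, ← h1, mulVec_mulVec,
      nonsing_inv_mul P2 hu2, one_mulVec]
  have n00 : N 0 0 = 0 := by simpa using congrFun hcol 0
  have n10 : N 1 0 = 1 := by simpa using congrFun hcol 1
  have n20 : N 2 0 = 0 := by simpa using congrFun hcol 2
  have fin : ∀ (P K : M33), P.det ≠ 0 → (g : M33) * P = P * K → Hit K →
      ∃ u v, g = (u * D13 * u⁻¹) * (v * D13 * v⁻¹) := by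
    rintro P K hP hPK ⟨y, -, hy, ⟨hd1, hk1, he1⟩, hd2, hk2, he2⟩
    exact prod_two_conj D13 g closed_three P y (adj3 y * K) (kry y) (kry (adj3 y * K)) hP
      hd1 hd2 hk1 hk2 (by rw [hy]; exact hPK) he1 he2
  have hP12 : (P1 * P2).det ≠ 0 := by rw [det_mul]; exact mul_ne_zero hP1 hdP2
  have hgN : (g : M33) * (P1 * P2) = P1 * P2 * N := by
    rw [← Matrix.mul_assoc, hgM, Matrix.mul_assoc, hMN, Matrix.mul_assoc]
  by_cases h21 : N 2 1 = 0
  · refine fin _ _ hP12 hgN ?_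
    have heta : N = !![0, N 0 1, N 0 2; 1, N 1 1, N 1 2; 0, 0, N 2 2] := by
      ext i j; fin_cases i <;> fin_cases j <;> simp [n00, n10, n20, h21]
    rw [heta]
    apply hit_other
    rw [det_fin_three, n00, n10, n20, h21] at hdN
    linear_combination hdN
  · set Q : M33 := !![1, 0, N 0 1; 0, 1, N 1 1; 0, 0, N 2 1] with hQ
    have hdQ : Q.det ≠ 0 := by rw [hQ, det_fin_three]; simpa using h21
    set K := Q⁻¹ * N * Q with hK
    have hNK : N * Q = Q * K := conj N Q hdQ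
    have hdK := detEq hdQ hNK hdN
    have huQ : IsUnit Q.det := isUnit_iff_ne_zero.2 hdQ
    have hc0 : K *ᵥ Pi.single 0 1 = ![0, 1, 0] := by
      have h1 : Q *ᵥ ![0, 1, 0] = N *ᵥ Pi.single 0 1 := by
        funext i; fin_cases i <;> simp [hQ, n00, n10, n20]
      have h2 : Q *ᵥ Pi.single 0 1 = Pi.single 0 1 := by
        funext i; fin_cases i <;> simp [hQ]
      rw [hK, ← mulVec_mulVec, h2, ← mulVec_mulVec, ← h1, mulVec_mulVec,
        nonsing_inv_mul Q huQ, one_mulVec]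
    have hc1 : K *ᵥ Pi.single 1 1 = ![0, 0, 1] := by
      have h1 : Q *ᵥ ![0, 0, 1] = N *ᵥ Pi.single 1 1 := by
        funext i; fin_cases i <;> simp [hQ]
      have h2 : Q *ᵥ Pi.single 1 1 = Pi.single 1 1 := by
        funext i; fin_cases i <;> simp [hQ]
      rw [hK, ← mulVec_mulVec, h2, ← mulVec_mulVec, ← h1, mulVec_mulVec,
        nonsing_inv_mul Q huQ, one_mulVec]
    have k00 : K 0 0 = 0 := by simpa using congrFun hc0 0
    have k10 : K 1 0 = 1 := by simpa using congrFun hc0 1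
    have k20 : K 2 0 = 0 := by simpa using congrFun hc0 2
    have k01 : K 0 1 = 0 := by simpa using congrFun hc1 0
    have k11 : K 1 1 = 0 := by simpa using congrFun hc1 1
    have k21 : K 2 1 = 1 := by simpa using congrFun hc1 2
    have k02 : K 0 2 = 1 := by
      rw [det_fin_three, k00, k10, k20, k01, k11, k21] at hdK
      linear_combination hdK
    refine fin (P1 * P2 * Q) K (by rw [det_mul]; exact mul_ne_zero hP12 hdQ) ?_ ?_
    · rw [← Matrix.mul_assoc, hgN, Matrix.mul_assoc, hNK, Matrix.mul_assoc (P1 * P2)]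
    · have heta : K = !![0, 0, 1; 1, 0, K 1 2; 0, 1, K 2 2] := by
        ext i j; fin_cases i <;> fin_cases j <;> simp [k00, k10, k20, k01, k11, k21, k02]
      rw [heta]; exact hit_cyclic _ _

end Cfsg.Agent.Thompson
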